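import Groth.Agent.Dcoh.ProjD182
import Groth.Agent.Dcoh.PerfDual
import Groth.Agent.Dcoh.MonSymm293
import Groth.Agent.PerfA.PCohQCoh
import Groth.Agent.PerfB.TensQCoh
import Groth.Agent.S1054

/-!
# The right adjoint of `Rf_*` on `D_QCoh` commutes with tensoring with a perfect object

For `f : X ⟶ Y` with a right adjoint `a` of `Rf_* : D_QCoh(O_X) ⥤ D_QCoh(O_Y)` and `K` perfect on `Y`:
`nonempty_tensQ_comp : tensQ K ⋙ a ≅ a ⋙ tensQ (Lf^*K)` as functors `D_QCoh(O_Y) ⥤ D_QCoh(O_X)`, where `tensQ K` is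
`- ⊗ᴸ K` restricted to `D_QCoh`.
-/

set_option autoImplicit false

universe u

open CategoryTheory Limits MonoidalCategory AlgebraicGeometry

attribute [local instance] HasDerivedCategory.standard

open scoped Groth.Agent.Dcoh.MonCat Groth.Agent.Dcoh.ModD

namespace Groth.Agent.Dual.H362.TensAdj

open Groth.Agent.Dcoh Groth.Agent.PerfA.QCohD

variable {X Y : Scheme.{u}}

/-- The tensor product of two objects of `D_QCoh` is in `D_QCoh`. -/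
theorem isQCohD_tensor {E F : DCoh.D X} (hE : DCoh.IsQCohD E) (hF : DCoh.IsQCohD F) :
    DCoh.IsQCohD (E ⊗ F : DCoh.D X) := by
  let F0 := DerivedCategory.Q.objPreimage F
  let e : DerivedCategory.Q.obj F0 ≅ F := DerivedCategory.Q.objObjPreimageIso F
  have : DCoh.HasLTensorCx F0 := ModTens.hasLTensorCx F0
  have h := PerfB.TensQCoh.isQCohD_LTensorCx F0 (isQCohD_of_iso e.symm hF) E hE
  exact isQCohD_of_iso ((ModTens.LTensorCxIso F0).app E ≪≫ whiskerLeftIso E e) h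

/-- `- ⊗ᴸ K : D_QCoh(O_X) ⥤ D_QCoh(O_X)` for `K` with quasi-coherent cohomology. -/
noncomputable def tensQ {K : DCoh.D X} (hK : DCoh.IsQCohD K) : DCoh.DQCoh X ⥤ DCoh.DQCoh X :=
  ObjectProperty.lift _ (ObjectProperty.ι _ ⋙ tensorRight K) fun M => isQCohD_tensor M.property hK

/-- For an exact pairing `(K, K')`, `- ⊗ᴸ K'` is left adjoint to `- ⊗ᴸ K` on `D_QCoh`. -/
theorem nonempty_tensQ_adj {K K' : DCoh.D X} (hK : DCoh.IsQCohD K) (hK' : DCoh.IsQCohD K')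
    [ExactPairing K K'] : Nonempty (tensQ hK' ⊣ tensQ hK) := by
  obtain ⟨adj⟩ := MonSymm293.nonempty_adj MonSymm293.weakSymm K K'
  exact ⟨adj.restrictFullyFaithful (DCoh.IsQCohD (X := X)).fullyFaithfulι (DCoh.IsQCohD (X := X)).fullyFaithfulι
    (Iso.refl _) (Iso.refl _)⟩

/-- The projection formula for a dualizable object, on `D_QCoh`. -/
theorem nonempty_projQ (f : X ⟶ Y) [DCoh.HasRpush f] (hf : DCoh.RpushPreservesQCoh f) [DCoh.HasLpull f]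
    {K : DCoh.D Y} (hKp : DCoh.IsPerfect K) (hK : DCoh.IsQCohD K) (hfK : DCoh.IsQCohD ((DCoh.Lpull f).obj K)) :
    Nonempty (DCoh.RpushQ f hf ⋙ tensQ hK ≅ tensQ hfK ⋙ DCoh.RpushQ f hf) := by
  let _ := MonPull.monPull f
  let _ := MonLpull182.lpullMonoidal f
  obtain ⟨K', -, ⟨_⟩⟩ := PerfDual.exists_exactPairing K hKp
  obtain ⟨e⟩ := MonLpull182.nonempty_proj MonSymm293.weakSymm MonSymm293.weakSymm (DCoh.Lpull f) (DCoh.Rpush f)
    (DerPull.lpullAdj f) K K'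
  exact ⟨NatIso.ofComponents (fun M => (DCoh.IsQCohD (X := Y)).isoMk (e.app M.obj))
    (fun φ => ObjectProperty.hom_ext _ (e.hom.naturality φ.hom))⟩

/-- `tensQ K ⋙ a ≅ a ⋙ tensQ (Lf^*K)` for `K` perfect and `a` a right adjoint of `Rf_*` on `D_QCoh`. -/
theorem nonempty_tensQ_comp (f : X ⟶ Y) [DCoh.HasRpush f] (hf : DCoh.RpushPreservesQCoh f) [DCoh.HasLpull f]
    (a : DCoh.DQCoh Y ⥤ DCoh.DQCoh X) (adj : DCoh.RpushQ f hf ⊣ a)
    {K : DCoh.D Y} (hKp : DCoh.IsPerfect K) (hK : DCoh.IsQCohD K) (hfK : DCoh.IsQCohD ((DCoh.Lpull f).obj K)) :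
    Nonempty (tensQ hK ⋙ a ≅ a ⋙ tensQ hfK) := by
  let _ := MonPull.monPull f
  let _ := MonLpull182.lpullMonoidal f
  obtain ⟨K', hKp', ⟨_⟩⟩ := PerfDual.exists_exactPairing K hKp
  have hK' : DCoh.IsQCohD K' := PerfA.QCohD.isQCohD_of_isPerfect K' hKp'
  have hfK' : DCoh.IsQCohD ((DCoh.Lpull f).obj K') := S1054.result f K' hK'
  let _ : ExactPairing ((DCoh.Lpull f).obj K) ((DCoh.Lpull f).obj K') := DualMap.mapPairing (DCoh.Lpull f) K K'
  obtain ⟨adjY⟩ := nonempty_tensQ_adj (K := K) (K' := K') hK hK'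
  obtain ⟨adjX⟩ := nonempty_tensQ_adj (K := (DCoh.Lpull f).obj K) (K' := (DCoh.Lpull f).obj K') hfK hfK'
  obtain ⟨p⟩ := nonempty_projQ f hf hKp' hK' hfK'
  exact ⟨conjugateIsoEquiv (adj.comp adjY) (adjX.comp adj) p.symm⟩

/-- Pointwise version: `a(L ⊗ K) ≅ a(L) ⊗ Lf^*K` in `D(O_X)`. -/
theorem nonempty_iso (f : X ⟶ Y) [DCoh.HasRpush f] (hf : DCoh.RpushPreservesQCoh f) [DCoh.HasLpull f]
    (a : DCoh.DQCoh Y ⥤ DCoh.DQCoh X) (adj : DCoh.RpushQ f hf ⊣ a)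
    (K L : DCoh.DQCoh Y) (hK : DCoh.IsPerfect K.obj) (M : DCoh.DQCoh Y)
    (hM : Nonempty (M.obj ≅ L.obj ⊗ K.obj)) :
    Nonempty ((a.obj M).obj ≅ (a.obj L).obj ⊗ (DCoh.Lpull f).obj K.obj) := by
  have hfK : DCoh.IsQCohD ((DCoh.Lpull f).obj K.obj) := S1054.result f K.obj K.property
  obtain ⟨p⟩ := nonempty_tensQ_comp f hf a adj hK K.property hfK
  obtain ⟨e⟩ := hM
  let e' : M ≅ (tensQ K.property).obj L := (DCoh.IsQCohD (X := Y)).isoMk e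
  exact ⟨(ObjectProperty.ι _).mapIso (a.mapIso e' ≪≫ p.app L)⟩

/-- The form with representing complexes. -/
theorem nonempty_frozen (f : X ⟶ Y) [DCoh.HasRpush f] (hf : DCoh.RpushPreservesQCoh f) (a : DCoh.DQCoh Y ⥤ DCoh.DQCoh X)
    (adj : DCoh.RpushQ f hf ⊣ a) [DCoh.HasLpull f] (K L : DCoh.DQCoh Y) (hK : DCoh.IsPerfect K.obj)
    (K' : CochainComplex Y.Modules ℤ) (eK : DCoh.toD Y K' ≅ K.obj) [DCoh.HasLTensorCx K']
    (hKL : DCoh.IsQCohD ((DCoh.LTensorCx K').obj L.obj)) (E : CochainComplex X.Modules ℤ)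
    (eE : DCoh.toD X E ≅ (a.obj L).obj) [DCoh.HasLTensorCx E] :
    Nonempty ((a.obj ⟨(DCoh.LTensorCx K').obj L.obj, hKL⟩).obj ≅
      (DCoh.LTensorCx E).obj ((DCoh.Lpull f).obj K.obj)) := by
  obtain ⟨e⟩ := nonempty_iso f hf a adj K L hK ⟨(DCoh.LTensorCx K').obj L.obj, hKL⟩
    ⟨(ModTens.LTensorCxIso K').app L.obj ≪≫ whiskerLeftIso L.obj eK⟩
  obtain ⟨s⟩ := MonSymm293.weakSymm (X := X) (a.obj L).obj
  exact ⟨e ≪≫ s.app ((DCoh.Lpull f).obj K.obj) ≪≫ whiskerLeftIso _ eE.symm ≪≫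
    ((ModTens.LTensorCxIso E).app ((DCoh.Lpull f).obj K.obj)).symm⟩

end Groth.Agent.Dual.H362.TensAdj
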